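import Cfsg.Agent.JOneSpec.Data
import Cfsg.Prelude.Def_Spor_J1

/-!
# Coded seven by seven matrices over the field with eleven elements
-/

set_option autoImplicit false
set_option maxRecDepth 100000

namespace CfsgLib.JOneSpec

/-- The matrices. -/
abbrev M7 := Matrix (Fin 7) (Fin 7) (ZMod 11)

/-- Pack digits in a base. -/
def pack (b : ℕ) (c : ℕ → ℕ) : ℕ → ℕ
  | 0 => 0
  | n + 1 => pack b c n + c n * b ^ n

/-- A digit. -/
def lane (x j : ℕ) : ℕ := x / 65536 ^ j % 65536

/-- A row. -/
def row (x i : ℕ) : ℕ := x / (65536 ^ 7) ^ i % 65536 ^ 7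

/-- An entry. -/
def ent (x i j : ℕ) : ℕ := lane (row x i) j

/-- A row of a product before reduction. -/
def sumRow (r C : ℕ) : ℕ :=
  lane r 0 * row C 0 + lane r 1 * row C 1 + lane r 2 * row C 2 + lane r 3 * row C 3 + lane r 4 * row C 4 +
    lane r 5 * row C 5 + lane r 6 * row C 6

/-- Reduce the digits of a row. -/
def normRow (y : ℕ) : ℕ := pack 65536 (fun j => lane y j % 11) 7

/-- The coded product. -/
def mulN (A C : ℕ) : ℕ := pack (65536 ^ 7) (fun i => normRow (sumRow (row A i) C)) 7

/-- The matrix of a code. -/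
def dec (x : ℕ) : M7 := fun i j => (ent x i.val j.val : ZMod 11)

/-- All entries of a code are reduced. -/
def Good (x : ℕ) : Prop := ∀ i < 7, ∀ j < 7, ent x i j < 11

theorem pack_lt {b : ℕ} {c : ℕ → ℕ} (n : ℕ) (h : ∀ i < n, c i < b) : pack b c n < b ^ n := by
  induction n with
  | zero => simp [pack]
  | succ n ih =>
    have h1 := ih fun i hi => h i (by omega)
    have h2 : (c n + 1) * b ^ n ≤ b * b ^ n := Nat.mul_le_mul_right _ (h n (by omega))
    rw [pack, pow_succ']
    rw [add_one_mul] at h2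
    omega

theorem pack_div_mod {b : ℕ} {c : ℕ → ℕ} (n : ℕ) (h : ∀ i < n, c i < b) {j : ℕ} (hj : j < n) :
    pack b c n / b ^ j % b = c j := by
  induction n with
  | zero => omega
  | succ n ih =>
    have hb : 0 < b := lt_of_le_of_lt (Nat.zero_le _) (h 0 (by omega))
    rw [pack]
    rcases Nat.lt_succ_iff_lt_or_eq.1 hj with h' | rfl
    · obtain ⟨d, rfl⟩ : ∃ d, n = j + 1 + d := ⟨n - j - 1, by omega⟩
      rw [show c (j + 1 + d) * b ^ (j + 1 + d) = b ^ j * (b * (c (j + 1 + d) * b ^ d)) by ring,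
        Nat.add_mul_div_left _ _ (pow_pos hb j), Nat.add_mul_mod_self_left]
      exact ih (fun i hi => h i (by omega)) h'
    · rw [Nat.add_mul_div_right _ _ (pow_pos hb j), Nat.div_eq_of_lt (pack_lt j fun i hi => h i (by omega)),
        zero_add, Nat.mod_eq_of_lt (h j (by omega))]

theorem pack_digits (b x : ℕ) : ∀ n, pack b (fun j => x / b ^ j % b) n = x % b ^ n
  | 0 => by simp [pack, Nat.mod_one]
  | n + 1 => by rw [pack, pack_digits b x n, Nat.mod_pow_succ, mul_comm]

theorem row_lt (x i : ℕ) : row x i < 65536 ^ 7 := Nat.mod_lt _ (by norm_num)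

theorem row_pack (x k : ℕ) : row x k = pack 65536 (ent x k) 7 := by
  have h := pack_digits 65536 (row x k) 7
  rw [Nat.mod_eq_of_lt (row_lt x k)] at h
  exact h.symm

theorem norm_lt (y : ℕ) : normRow y < 65536 ^ 7 :=
  pack_lt 7 fun j _ => lt_of_lt_of_le (Nat.mod_lt _ (by norm_num)) (by norm_num)

theorem ent_mulN (A C : ℕ) {i j : ℕ} (hi : i < 7) (hj : j < 7) :
    ent (mulN A C) i j = lane (sumRow (row A i) C) j % 11 := by
  unfold ent
  rw [row, mulN, pack_div_mod 7 (fun i _ => norm_lt _) hi]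
  exact pack_div_mod 7 (fun j _ => lt_of_lt_of_le (Nat.mod_lt _ (by norm_num)) (by norm_num)) hj

theorem good_mulN (A C : ℕ) : Good (mulN A C) := fun i hi j hj => by
  rw [ent_mulN A C hi hj]; exact Nat.mod_lt _ (by norm_num)

theorem sumRow_eq (r C : ℕ) : sumRow r C =
    pack 65536 (fun j => lane r 0 * ent C 0 j + lane r 1 * ent C 1 j + lane r 2 * ent C 2 j +
      lane r 3 * ent C 3 j + lane r 4 * ent C 4 j + lane r 5 * ent C 5 j + lane r 6 * ent C 6 j) 7 := by
  simp only [sumRow, row_pack C, pack]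
  ring

theorem dec_mulN {A C : ℕ} (hA : Good A) (hC : Good C) : dec (mulN A C) = dec A * dec C := by
  ext i j
  show ((ent (mulN A C) i.val j.val : ℕ) : ZMod 11) = _
  rw [ent_mulN A C i.isLt j.isLt, ZMod.natCast_mod, sumRow_eq, lane, pack_div_mod 7 _ j.isLt]
  · simp only [Matrix.mul_apply, Fin.sum_univ_seven, dec, Nat.cast_add, Nat.cast_mul, ent]
    rfl
  · intro j' hj'
    have b : ∀ k, k < 7 → lane (row A i.val) k * ent C k j' ≤ 10 * 10 := fun k hk =>
      Nat.mul_le_mul (Nat.le_of_lt_succ (hA i.val i.isLt k hk)) (Nat.le_of_lt_succ (hC k hk j' hj'))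
    have b0 := b 0 (by norm_num)
    have b1 := b 1 (by norm_num)
    have b2 := b 2 (by norm_num)
    have b3 := b 3 (by norm_num)
    have b4 := b 4 (by norm_num)
    have b5 := b 5 (by norm_num)
    have b6 := b 6 (by norm_num)
    omega

/-- The check that all entries are reduced. -/
def goodN (x : ℕ) : Bool := (List.range 7).all fun i => (List.range 7).all fun j => Nat.blt (ent x i j) 11

theorem good_of_goodN {x : ℕ} (h : goodN x = true) : Good x := fun i hi j hj => by
  simp only [goodN, List.all_eq_true, List.mem_range, Nat.blt_eq] at h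
  exact h i hi j hj

/-- A checked product equation. -/
def prodEq (a b c d : ℕ) : Bool := Nat.beq (mulN a b) (mulN c d)

theorem prodEq_sound {a b c d : ℕ} (ha : Good a) (hb : Good b) (hc : Good c) (hd : Good d)
    (h : prodEq a b c d = true) : dec a * dec b = dec c * dec d := by
  rw [← dec_mulN ha hb, ← dec_mulN hc hd, Nat.eq_of_beq_eq_true h]

theorem cX_eq : dec Data.cX = Cfsg.jankoMatrixX := by decide +kernel

theorem cY_eq : dec Data.cY = Cfsg.jankoMatrixY := by decide +kernel

theorem cI_eq : dec Data.cI = 1 := by decide +kernel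

theorem good_consts : Good Data.cA ∧ Good Data.cB ∧ Good Data.cX ∧ Good Data.cY ∧ Good Data.cI :=
  ⟨good_of_goodN (by decide +kernel), good_of_goodN (by decide +kernel), good_of_goodN (by decide +kernel),
    good_of_goodN (by decide +kernel), good_of_goodN (by decide +kernel)⟩

end CfsgLib.JOneSpec
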