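import Cfsg.Agent.JOneSpec.Tables

/-! Kernel checks of element orders. -/

set_option autoImplicit false
set_option maxRecDepth 100000

namespace CfsgLib.JOneSpec

theorem orders5 : ((List.range 330).map (· + 1650)).all ordOK = true := by decide +kernel

theorem orders6 : ((List.range 330).map (· + 1980)).all ordOK = true := by decide +kernel

theorem orders7 : ((List.range 330).map (· + 2310)).all ordOK = true := by decide +kernel

theorem orders8 : ((List.range 330).map (· + 2640)).all ordOK = true := by decide +kernel

theorem orders9 : ((List.range 330).map (· + 2970)).all ordOK = true := by decide +kernel

end CfsgLib.JOneSpec
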