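import Cfsg.Agent.JOneSpec.OrdersA
import Cfsg.Agent.JOneSpec.OrdersB

/-!
# Element orders of the first Janko group

The group is covered by the cosets of a subgroup of 660 elements, these cosets fall into five double cosets, and
every element is therefore conjugate to one of 3300 listed products, each of which has order dividing one of
6, 10, 15, 7, 11, 19.
-/

set_option autoImplicit false
set_option maxRecDepth 10000

namespace CfsgLib.JOneSpec

open CfsgLib.Chev

attribute [local irreducible] mulN hc tc Trie.get powN sqN dec Good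

theorem dec_sqN {g : ℕ} (h : Good g) : dec (sqN g) = dec g ^ 2 := by rw [sqN, dec_mulN h h, sq]

theorem good_sqN (g : ℕ) : Good (sqN g) := by rw [sqN]; exact good_mulN g g

theorem dec_powN {g : ℕ} (h : Good g) : ∀ t, dec (powN g t) = dec g ^ expo t
  | 0 => by
    simp only [powN, expo, dec_sqN, dec_mulN, h, good_sqN, good_mulN, ← pow_succ, ← pow_mul]
  | 1 => by
    simp only [powN, expo, dec_sqN, dec_mulN, h, good_sqN, good_mulN, ← pow_succ, ← pow_mul]
  | 2 => by
    simp only [powN, expo, dec_sqN, dec_mulN, h, good_sqN, good_mulN, ← pow_succ, ← pow_mul, ← pow_add]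
  | 3 => by
    simp only [powN, expo, dec_sqN, dec_mulN, h, good_sqN, good_mulN, ← pow_succ, ← pow_mul]
  | 4 => by
    simp only [powN, expo, dec_sqN, dec_mulN, h, good_sqN, good_mulN, ← pow_succ, ← pow_mul]
  | t + 5 => by
    simp only [powN, expo, dec_sqN, dec_mulN, h, good_sqN, good_mulN, ← pow_succ, ← pow_mul, ← pow_add]

theorem orders_all {n : ℕ} (hn : n < 3300) : ordOK n = true := by
  have key : ∀ c : ℕ, ((List.range 330).map (· + 330 * c)).all ordOK = true →
      330 * c ≤ n → n < 330 * c + 330 → ordOK n = true := fun c hc h1 h2 =>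
    List.all_eq_true.1 hc n (List.mem_map.2 ⟨n - 330 * c, List.mem_range.2 (by omega), by omega⟩)
  by_cases h0 : n < 330
  · exact key 0 orders0 (by omega) (by omega)
  by_cases h1 : n < 660
  · exact key 1 orders1 (by omega) (by omega)
  by_cases h2 : n < 990
  · exact key 2 orders2 (by omega) (by omega)
  by_cases h3 : n < 1320
  · exact key 3 orders3 (by omega) (by omega)
  by_cases h4 : n < 1650
  · exact key 4 orders4 (by omega) (by omega)
  by_cases h5 : n < 1980
  · exact key 5 orders5 (by omega) (by omega)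
  by_cases h6 : n < 2310
  · exact key 6 orders6 (by omega) (by omega)
  by_cases h7 : n < 2640
  · exact key 7 orders7 (by omega) (by omega)
  by_cases h8 : n < 2970
  · exact key 8 orders8 (by omega) (by omega)
  exact key 9 orders9 (by omega) (by omega)

/-- The listed subgroup. -/
def InH (M : M7) : Prop := ∃ i < 660, M = dec (hc i)

theorem inH_gen {M : M7} (hM : InH M) : InH (M * dec Data.cA) ∧ InH (M * dec Data.cB) := by
  obtain ⟨i, hi, rfl⟩ := hM
  have h := List.all_eq_true.1 close_ok i (List.mem_range.2 hi)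
  simp only [Bool.and_eq_true, Nat.blt_eq] at h
  exact ⟨⟨_, h.1.1.1, by rw [← dec_mulN (good_h hi) good_consts.1, Nat.eq_of_beq_eq_true h.1.1.2]⟩,
    ⟨_, h.1.2, by rw [← dec_mulN (good_h hi) good_consts.2.1, Nat.eq_of_beq_eq_true h.2]⟩⟩

theorem inH_mul {M N : M7} (hM : InH M) (hN : InH N) : InH (M * N) := by
  obtain ⟨j, hj, rfl⟩ := hN
  have h := tree_ok
  simp only [Bool.and_eq_true, List.all_eq_true, List.mem_range, Bool.or_eq_true, Nat.ble_eq, Nat.blt_eq] at h
  induction j using Nat.strong_induction_on generalizing M with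
  | _ j ih =>
    rcases h.2 j hj with h0 | ⟨hlt, he⟩
    · obtain rfl : j = 0 := by omega
      rwa [Nat.eq_of_beq_eq_true h.1, cI_eq, mul_one]
    rw [Nat.eq_of_beq_eq_true he]
    cases Nat.beq ((Data.parT.get j - 1) % 2) 0
    · rw [cond_false, dec_mulN (good_h (by omega)) good_consts.2.1, ← mul_assoc]
      exact (inH_gen (ih _ hlt hM (by omega))).2
    · rw [cond_true, dec_mulN (good_h (by omega)) good_consts.1, ← mul_assoc]
      exact (inH_gen (ih _ hlt hM (by omega))).1

/-- The union of the listed cosets. -/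
def Covered (M : M7) : Prop := ∃ i < 266, ∃ N, InH N ∧ M = dec (tc i) * N

theorem covered_one : Covered 1 := by
  have h := coset_ok
  have h' := tree_ok
  simp only [Bool.and_eq_true] at h h'
  exact ⟨0, by norm_num, dec (hc 0), ⟨0, by norm_num, rfl⟩,
    by rw [Nat.eq_of_beq_eq_true h.1, Nat.eq_of_beq_eq_true h'.1, cI_eq, mul_one]⟩

theorem covered_gen {M : M7} (hM : Covered M) : Covered (Cfsg.jankoMatrixX * M) ∧ Covered (Cfsg.jankoMatrixY * M) := by
  obtain ⟨i, hi, N, hN, rfl⟩ := hM
  have h := coset_ok
  simp only [Bool.and_eq_true, List.all_eq_true, List.mem_range, Nat.blt_eq] at h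
  obtain ⟨⟨⟨⟨⟨x1, x2⟩, x3⟩, y1⟩, y2⟩, y3⟩ := h.2 i hi
  have ex := prodEq_sound good_consts.2.2.1 (good_t hi) (good_t x1) (good_h x2) x3
  have ey := prodEq_sound good_consts.2.2.2.1 (good_t hi) (good_t y1) (good_h y2) y3
  rw [cX_eq] at ex
  rw [cY_eq] at ey
  exact ⟨⟨_, x1, _, inH_mul ⟨_, x2, rfl⟩ hN, by rw [← mul_assoc, ex, mul_assoc]⟩,
    ⟨_, y1, _, inH_mul ⟨_, y2, rfl⟩ hN, by rw [← mul_assoc, ey, mul_assoc]⟩⟩

/-- The matrix of an element. -/
def mat (g : ↥Cfsg.Spor.J1) : M7 := ((g : GL (Fin 7) (ZMod 11)) : M7)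

theorem covered_mem (g : GL (Fin 7) (ZMod 11)) (hg : g ∈ Cfsg.Spor.J1) : Covered (g : M7) := by
  have iter : ∀ (A : M7), (∀ M, Covered M → Covered (A * M)) → ∀ n M, Covered M → Covered (A ^ n * M) := by
    intro A hA n
    induction n with
    | zero => intro M hM; simpa using hM
    | succ n ih => intro M hM; rw [pow_succ', mul_assoc]; exact hA _ (ih M hM)
  induction hg using Subgroup.closure_induction_left with
  | one => exact covered_one
  | mul_left x hx y _ ih =>
    rcases hx with rfl | rfl
    · exact (covered_gen ih).1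
    · exact (covered_gen ih).2
  | inv_mul_cancel x hx y _ ih =>
    rcases hx with rfl | rfl
    · have e : Cfsg.jankoMatrixX.transpose = Cfsg.jankoMatrixX ^ 6 := by decide +kernel
      rw [Units.val_mul, show ((Cfsg.Spor.jankoX⁻¹ : GL (Fin 7) (ZMod 11)) : M7) = _ from e]
      exact iter _ (fun M h => (covered_gen h).1) 6 _ ih
    · have e : Cfsg.jankoMatrixY.transpose = Cfsg.jankoMatrixY ^ 4 := by decide +kernel
      rw [Units.val_mul, show ((Cfsg.Spor.jankoY⁻¹ : GL (Fin 7) (ZMod 11)) : M7) = _ from e]
      exact iter _ (fun M h => (covered_gen h).2) 4 _ ih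

/-- The six maximal element orders. -/
def maxOrders : List ℕ := [6, 10, 15, 7, 11, 19]

theorem expo_mem : ∀ t, expo t ∈ maxOrders
  | 0 | 1 | 2 | 3 | 4 => by decide
  | _ + 5 => List.mem_cons_of_mem _ (List.mem_cons_of_mem _ (List.mem_cons_of_mem _
      (List.mem_cons_of_mem _ (List.mem_cons_of_mem _ (List.mem_cons_self ..)))))

theorem order_dvd (g : ↥Cfsg.Spor.J1) : ∃ k ∈ maxOrders, orderOf g ∣ k := by
  obtain ⟨k, hk, N, hN, e⟩ := covered_mem g.1 g.2
  have h := List.all_eq_true.1 double_ok k (List.mem_range.2 hk)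
  simp only [Bool.and_eq_true, Nat.blt_eq, List.any_eq_true, List.mem_range] at h
  obtain ⟨⟨⟨⟨⟨r, hr, hre⟩, ho⟩, ha⟩, hb⟩, he⟩ := h
  set a := Data.waT.get k
  set o := Data.orbT.get k
  set b := Data.wbT.get k
  have e' : dec (tc k) = dec (hc a) * dec (tc o) * dec (hc b) := by
    rw [Nat.eq_of_beq_eq_true he, dec_mulN (good_mulN _ _) (good_h hb), dec_mulN (good_h ha) (good_t ho)]
  obtain ⟨m, hm, eN⟩ := inH_mul (inH_mul ⟨b, hb, rfl⟩ hN) ⟨a, ha, rfl⟩
  have hord := orders_all (n := 660 * r + m) (by omega)
  rw [ordOK, show (660 * r + m) / 660 = r by omega, show (660 * r + m) % 660 = m by omega,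
    ← Nat.eq_of_beq_eq_true hre] at hord
  set t := Data.tagT.get (660 * r + m)
  have hp : (dec (tc o) * dec (hc m)) ^ expo t = 1 := by
    rw [← dec_mulN (good_t ho) (good_h hm), ← dec_powN (good_mulN _ _), Nat.eq_of_beq_eq_true hord, cI_eq]
  have conj_pow : ∀ (A B : M7) (n : ℕ), (A * B) ^ (n + 1) = A * (B * A) ^ n * B := by
    intro A B n
    induction n with
    | zero => simp
    | succ n ih => rw [pow_succ, ih, pow_succ]; simp only [mul_assoc]
  have hg : mat g = dec (hc a) * (dec (tc o) * (dec (hc b) * N)) := by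
    show (g.1 : M7) = _
    rw [e, e']; simp only [mul_assoc]
  have h1 : mat g ^ (expo t + 1) = mat g := by
    rw [hg, conj_pow, show dec (tc o) * (dec (hc b) * N) * dec (hc a) = dec (tc o) * dec (hc m) by
      rw [← eN]; simp only [mul_assoc], hp, mul_one]
  have h2 : g ^ expo t = 1 := by
    refine Subtype.ext (mul_right_cancel (b := (g : GL (Fin 7) (ZMod 11))) ?_)
    rw [Subgroup.coe_pow, Subgroup.coe_one, one_mul, ← pow_succ]
    exact Units.ext ((Units.val_pow_eq_pow_val _ _).trans h1)
  exact ⟨expo t, expo_mem t, orderOf_dvd_of_pow_eq_one h2⟩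

/-! ### Witnesses -/

/-- The element of a word in the generators. -/
def wordEl (w : List Bool) : ↥Cfsg.Spor.J1 :=
  (w.map fun b => bif b then (⟨Cfsg.Spor.jankoY, Subgroup.subset_closure (by simp)⟩ : ↥Cfsg.Spor.J1)
    else ⟨Cfsg.Spor.jankoX, Subgroup.subset_closure (by simp)⟩).prod

/-- The code of a generator. -/
def genN (b : Bool) : ℕ := bif b then Data.cY else Data.cX

/-- The code of a word. -/
def wordN : List Bool → ℕ
  | [] => Data.cI
  | b :: w => mulN (genN b) (wordN w)

theorem good_wordN (w : List Bool) : Good (wordN w) := by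
  cases w with
  | nil => rw [wordN]; exact good_consts.2.2.2.2
  | cons b w => rw [wordN]; exact good_mulN _ _

theorem mat_mul (g h : ↥Cfsg.Spor.J1) : mat (g * h) = mat g * mat h := rfl

theorem mat_wordEl (w : List Bool) : mat (wordEl w) = dec (wordN w) := by
  induction w with
  | nil => rw [wordN, cI_eq]; rfl
  | cons b w ih =>
    have hb : Good (genN b) := by
      cases b
      · exact good_consts.2.2.1
      · exact good_consts.2.2.2.1
    rw [wordN, dec_mulN hb (good_wordN w), ← ih, wordEl, List.map_cons, List.prod_cons, mat_mul, ← wordEl]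
    congr 1
    cases b
    · exact cX_eq.symm
    · exact cY_eq.symm

/-- Iterated coded powers. -/
def iterN (g : ℕ) : ℕ → ℕ
  | 0 => Data.cI
  | n + 1 => mulN (iterN g n) g

theorem dec_iterN {g : ℕ} (h : Good g) : ∀ n, Good (iterN g n) ∧ dec (iterN g n) = dec g ^ n
  | 0 => ⟨good_consts.2.2.2.2, by rw [iterN, cI_eq, pow_zero]⟩
  | n + 1 => ⟨good_mulN _ _, by rw [iterN, dec_mulN (dec_iterN h n).1 h, (dec_iterN h n).2, pow_succ]⟩

theorem orderOf_wordEl (w : List Bool) {o : ℕ} (ho : 0 < o) (h1 : dec (iterN (wordN w) o) = 1)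
    (h2 : ∀ m < o, 0 < m → dec (iterN (wordN w) m) ≠ 1) : orderOf (wordEl w) = o := by
  have key : ∀ m, wordEl w ^ m = 1 ↔ dec (iterN (wordN w) m) = 1 := by
    intro m
    rw [(dec_iterN (good_wordN w) m).2, ← mat_wordEl, Subtype.ext_iff, Units.ext_iff, Subgroup.coe_pow,
      Subgroup.coe_one, Units.val_pow_eq_pow_val, Units.val_one]
    rfl
  exact (orderOf_eq_iff ho).2 ⟨(key o).2 h1, fun m hm h0 h => h2 m hm h0 ((key m).1 h)⟩

theorem exists_order : ∀ k ∈ maxOrders, ∃ g : ↥Cfsg.Spor.J1, orderOf g = k := by
  intro k hk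
  simp only [maxOrders, List.mem_cons, List.not_mem_nil, or_false] at hk
  rcases hk with rfl | rfl | rfl | rfl | rfl | rfl
  · exact ⟨_, orderOf_wordEl [false, false, false, false, false, true, true, true, false, true, true, true, false, true, true, false, false] (by norm_num) (by decide +kernel) (by decide +kernel)⟩
  · exact ⟨_, orderOf_wordEl [false, false, true, false, false, true, true, false, false, true, true, false, false, false, false, true, true, false, true] (by norm_num) (by decide +kernel) (by decide +kernel)⟩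
  · exact ⟨_, orderOf_wordEl [true, true, false, true, false, false, true, false, true, true, true, false, false, true, false] (by norm_num) (by decide +kernel) (by decide +kernel)⟩
  · exact ⟨_, orderOf_wordEl [true, true, true, false, true, true, false, true, true, false, false, true, true, true, false, true, true, false, false] (by norm_num) (by decide +kernel) (by decide +kernel)⟩
  · exact ⟨_, orderOf_wordEl [true, true, true, false, true, true, true, false, false, true, false, true, true, false, true, true] (by norm_num) (by decide +kernel) (by decide +kernel)⟩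
  · exact ⟨_, orderOf_wordEl [true, false, false, true, true, false, true, true, true, false, true, false, true, false, false, true, true, false] (by norm_num) (by decide +kernel) (by decide +kernel)⟩

end CfsgLib.JOneSpec
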