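import Cfsg.Agent.JOneSpec.Cover

/-!
# Groups with the spectrum of the fourth direct power of the first Janko group

That spectrum consists of the proper divisors of `43890 = 2·3·5·7·11·19`. A solvable group with the same spectrum:
an elementary abelian 11-group extended by a cyclic group of order `3990`, whose generators act without fixed points
while each element of prime index fixes a vector.
-/

set_option autoImplicit false
set_option maxRecDepth 10000

namespace CfsgLib.JOneSpec

theorem lcm_ok : ∀ a ∈ maxOrders, ∀ b ∈ maxOrders, ∀ c ∈ maxOrders, ∀ d ∈ maxOrders,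
    Nat.lcm (Nat.lcm (Nat.lcm a b) c) d ∣ 43890 ∧ Nat.lcm (Nat.lcm (Nat.lcm a b) c) d ≠ 43890 := by
  decide +kernel

/-- The maximal proper divisors. -/
def topOrders : List ℕ := [21945, 14630, 8778, 6270, 3990, 2310]

theorem proper_iff (d : ℕ) : (d ∣ 43890 ∧ d ≠ 43890) ↔ ∃ t ∈ topOrders, d ∣ t := by
  constructor
  · rintro ⟨hd, hne⟩
    obtain ⟨c, hc⟩ := hd
    have hc1 : 1 < c := by
      rcases c with _ | _ | c
      · simp at hc
      · simp at hc; exact absurd hc.symm hne
      · omega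
    obtain ⟨p, hp, c', rfl⟩ := Nat.exists_prime_and_dvd (by omega : c ≠ 1)
    have h' : p ∣ 2 * (3 * (5 * (7 * (11 * 19)))) := ⟨d * c', by rw [show (2 : ℕ) * (3 * (5 * (7 * (11 * 19)))) = 43890 from rfl, hc]; ring⟩
    have pr : ∀ q : ℕ, q.Prime → p ∣ q → p = q := fun q hq h => (Nat.prime_dvd_prime_iff_eq hp hq).1 h
    have key : ∀ t, 43890 = t * p → d ∣ t := fun t ht => by
      refine ⟨c', mul_right_cancel₀ hp.ne_zero ?_⟩
      rw [← ht, hc]; ring
    rcases hp.dvd_mul.1 h' with h | h
    · exact ⟨21945, by simp [topOrders], key _ (by rw [pr 2 (by norm_num) h])⟩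
    rcases hp.dvd_mul.1 h with h | h
    · exact ⟨14630, by simp [topOrders], key _ (by rw [pr 3 (by norm_num) h])⟩
    rcases hp.dvd_mul.1 h with h | h
    · exact ⟨8778, by simp [topOrders], key _ (by rw [pr 5 (by norm_num) h])⟩
    rcases hp.dvd_mul.1 h with h | h
    · exact ⟨6270, by simp [topOrders], key _ (by rw [pr 7 (by norm_num) h])⟩
    rcases hp.dvd_mul.1 h with h | h
    · exact ⟨3990, by simp [topOrders], key _ (by rw [pr 11 (by norm_num) h])⟩
    · exact ⟨2310, by simp [topOrders], key _ (by rw [pr 19 (by norm_num) h])⟩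
  · rintro ⟨t, ht, hd⟩
    have : ∀ t ∈ topOrders, t ∣ 43890 ∧ 0 < t ∧ t < 43890 := by decide
    obtain ⟨h1, h2, h3⟩ := this t ht
    exact ⟨hd.trans h1, (lt_of_le_of_lt (Nat.le_of_dvd h2 hd) h3).ne⟩

theorem range_orderOf {G : Type*} [Group G] [Finite G] (h1 : ∀ g : G, orderOf g ∣ 43890 ∧ orderOf g ≠ 43890)
    (h2 : ∀ t ∈ topOrders, ∃ g : G, orderOf g = t) :
    Set.range (orderOf : G → ℕ) = {d | d ∣ 43890 ∧ d ≠ 43890} := by
  ext d
  simp only [Set.mem_range, Set.mem_setOf_eq]
  refine ⟨fun ⟨g, hg⟩ => hg ▸ h1 g, fun hd => ?_⟩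
  obtain ⟨t, ht, hdt⟩ := (proper_iff d).1 hd
  obtain ⟨g, hg⟩ := h2 t ht
  refine ⟨g ^ (t / d), ?_⟩
  have ht0 : ∀ t ∈ topOrders, t ≠ 0 := by decide
  rw [← hg] at hdt ⊢
  exact orderOf_pow_orderOf_div (hg ▸ ht0 t ht) hdt

theorem range_fourth :
    Set.range (orderOf : ↥Cfsg.Spor.J1 × ↥Cfsg.Spor.J1 × ↥Cfsg.Spor.J1 × ↥Cfsg.Spor.J1 → ℕ) =
      {d | d ∣ 43890 ∧ d ≠ 43890} := by
  refine range_orderOf (fun g => ?_) (fun t ht => ?_)
  · obtain ⟨a, ha, ha'⟩ := order_dvd g.1
    obtain ⟨b, hb, hb'⟩ := order_dvd g.2.1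
    obtain ⟨c, hc, hc'⟩ := order_dvd g.2.2.1
    obtain ⟨d, hd, hd'⟩ := order_dvd g.2.2.2
    obtain ⟨h1, h2⟩ := lcm_ok a ha b hb c hc d hd
    have h : orderOf g ∣ Nat.lcm (Nat.lcm (Nat.lcm a b) c) d := by
      rw [Prod.orderOf, Prod.orderOf, Prod.orderOf]
      refine Nat.lcm_dvd ((ha'.trans (Nat.dvd_lcm_left a b)).trans ?_) (Nat.lcm_dvd
        ((hb'.trans (Nat.dvd_lcm_right a b)).trans ?_) (Nat.lcm_dvd
          ((hc'.trans (Nat.dvd_lcm_right _ c)).trans (Nat.dvd_lcm_left _ d)) (hd'.trans (Nat.dvd_lcm_right _ d))))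
      · exact (Nat.dvd_lcm_left _ c).trans (Nat.dvd_lcm_left _ d)
      · exact (Nat.dvd_lcm_left _ c).trans (Nat.dvd_lcm_left _ d)
    refine ⟨h.trans h1, fun e => h2 ?_⟩
    rw [e] at h
    exact Nat.dvd_antisymm h1 h
  · have mk : ∀ a ∈ maxOrders, ∀ b ∈ maxOrders, ∀ c ∈ maxOrders, ∀ d ∈ maxOrders,
        Nat.lcm a (Nat.lcm b (Nat.lcm c d)) = t →
        ∃ g : ↥Cfsg.Spor.J1 × ↥Cfsg.Spor.J1 × ↥Cfsg.Spor.J1 × ↥Cfsg.Spor.J1, orderOf g = t := by
      intro a ha b hb c hc d hd he
      obtain ⟨x, hx⟩ := exists_order a ha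
      obtain ⟨y, hy⟩ := exists_order b hb
      obtain ⟨z, hz⟩ := exists_order c hc
      obtain ⟨w, hw⟩ := exists_order d hd
      exact ⟨(x, y, z, w), by rw [Prod.orderOf, Prod.orderOf, Prod.orderOf, hx, hy, hz, hw, he]⟩
    simp only [topOrders, List.mem_cons, List.not_mem_nil, or_false] at ht
    rcases ht with rfl | rfl | rfl | rfl | rfl | rfl
    · exact mk 15 (by decide) 7 (by decide) 11 (by decide) 19 (by decide) rfl
    · exact mk 10 (by decide) 7 (by decide) 11 (by decide) 19 (by decide) rfl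
    · exact mk 6 (by decide) 7 (by decide) 11 (by decide) 19 (by decide) rfl
    · exact mk 6 (by decide) 10 (by decide) 11 (by decide) 19 (by decide) rfl
    · exact mk 6 (by decide) 10 (by decide) 7 (by decide) 19 (by decide) rfl
    · exact mk 6 (by decide) 10 (by decide) 7 (by decide) 11 (by decide) rfl

/-! ### The solvable group -/

/-- The five primes. -/
def cyc : Fin 5 → ℕ := ![2, 3, 5, 7, 19]

theorem cyc_dvd : ∀ i, cyc i ∣ 3990 := by decide

instance instNeZeroCyc (i : Fin 5) : NeZero (cyc i) := ⟨(by decide : ∀ i, cyc i ≠ 0) i⟩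

/-- The vectors with all block sums zero. -/
def modW (N : ℕ) : AddSubgroup (Fin N → (i : Fin 5) → ZMod (cyc i) → ZMod 11) where
  carrier := {f | ∀ n i, ∑ x, f n i x = 0}
  add_mem' := fun {f g} hf hg n i => by simp [Finset.sum_add_distrib, hf n i, hg n i]
  zero_mem' := fun n i => by simp
  neg_mem' := fun {f} hf n i => by simp [hf n i]

/-- The image of a residue in a block. -/
def res (i : Fin 5) (c : ZMod 3990) : ZMod (cyc i) := ZMod.castHom (cyc_dvd i) (ZMod (cyc i)) c

/-- Translation of the blocks. -/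
def shift (N : ℕ) (c : ZMod 3990) (f : ↥(modW N)) : ↥(modW N) :=
  ⟨fun n i x => f.1 n i (x + res i c), fun n i => by
    rw [← f.2 n i]
    exact Equiv.sum_comp (Equiv.addRight (res i c)) (f.1 n i)⟩

theorem shift_zero (N : ℕ) (f : ↥(modW N)) : shift N 0 f = f := by
  apply Subtype.ext; funext n i x; simp [shift, res]

theorem shift_add (N : ℕ) (c d : ZMod 3990) (f : ↥(modW N)) : shift N c (shift N d f) = shift N (c + d) f := by
  apply Subtype.ext; funext n i x; simp only [shift, res, map_add, add_assoc]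

/-- The action. -/
def act (N : ℕ) : Multiplicative (ZMod 3990) →* MulAut (Multiplicative ↥(modW N)) where
  toFun c :=
    { toFun := fun v => Multiplicative.ofAdd (shift N c.toAdd v.toAdd)
      invFun := fun v => Multiplicative.ofAdd (shift N (-c.toAdd) v.toAdd)
      left_inv := fun v => by simp [shift_add, shift_zero]
      right_inv := fun v => by simp [shift_add, shift_zero]
      map_mul' := fun v w => by
        apply Multiplicative.toAdd.injective
        apply Subtype.ext; funext n i x; rfl }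
  map_one' := by ext v : 1; simp [shift_zero]
  map_mul' c d := by ext v : 1; simp [shift_add]

/-- The extension. -/
abbrev Ext (N : ℕ) : Type := Multiplicative ↥(modW N) ⋊[act N] Multiplicative (ZMod 3990)

noncomputable instance instFintypeExt (N : ℕ) : Fintype (Ext N) :=
  @Fintype.ofFinite _ (Finite.of_equiv _ SemidirectProduct.equivProd.symm)

theorem pow_eleven {N : ℕ} (v : Multiplicative ↥(modW N)) : v ^ 11 = 1 := by
  apply Multiplicative.toAdd.injective
  apply Subtype.ext
  funext n i x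
  exact (by decide : ∀ a : ZMod 11, (11 : ℕ) • a = 0) _

theorem const_of_periodic {p : ℕ} (hp : p.Prime) {α : Type} (f : ZMod p → α) {c : ZMod p} (hc : c ≠ 0)
    (h : ∀ y, f (y + c) = f y) (y : ZMod p) : f y = f 0 := by
  have : Fact p.Prime := ⟨hp⟩
  have hk : ∀ k : ℕ, f ((k : ZMod p) * c) = f 0 := by
    intro k
    induction k with
    | zero => simp
    | succ k ih => rw [Nat.cast_succ, add_one_mul, h, ih]
  have := hk (y * c⁻¹).val
  rwa [ZMod.natCast_zmod_val, mul_assoc, inv_mul_cancel₀ hc, mul_one] at this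

theorem cyc_ne_zero : ∀ i, ((cyc i : ℕ) : ZMod 11) ≠ 0 := by decide

theorem orderOf_ext {N : ℕ} (g : Ext N) : orderOf g ∣ 43890 ∧ orderOf g ≠ 43890 := by
  have hc : g.right ^ 3990 = 1 := by
    apply Multiplicative.toAdd.injective
    rw [toAdd_pow, toAdd_one, nsmul_eq_mul, ZMod.natCast_self, zero_mul]
  have hr : ∀ k : ℕ, (g ^ k).right = g.right ^ k := fun k =>
    map_pow (SemidirectProduct.rightHom : Ext N →* _) g k
  have hu : g ^ 3990 = SemidirectProduct.inl (g ^ 3990).left :=
    SemidirectProduct.ext rfl (by rw [hr, hc]; rfl)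
  have h1 : g ^ 43890 = 1 := by
    rw [show (43890 : ℕ) = 3990 * 11 from rfl, pow_mul, hu, ← map_pow, pow_eleven, map_one]
  refine ⟨orderOf_dvd_of_pow_eq_one h1, fun h => ?_⟩
  have hgen : ∀ i, res i g.right.toAdd ≠ 0 := by
    intro i hi
    have hdiv : g.right ^ (3990 / cyc i) = 1 := by
      apply Multiplicative.toAdd.injective
      rw [toAdd_pow, toAdd_one, nsmul_eq_mul]
      obtain ⟨k, hk⟩ : ∃ k : ℕ, g.right.toAdd = (k : ZMod 3990) := ⟨_, (ZMod.natCast_zmod_val _).symm⟩
      rw [hk, res, map_natCast, ZMod.natCast_eq_zero_iff] at hi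
      obtain ⟨a, rfl⟩ := hi
      rw [hk, ← Nat.cast_mul, ← mul_assoc, Nat.div_mul_cancel (cyc_dvd i), Nat.cast_mul, ZMod.natCast_self,
        zero_mul]
    have hu' : g ^ (3990 / cyc i) = SemidirectProduct.inl (g ^ (3990 / cyc i)).left :=
      SemidirectProduct.ext rfl (by rw [hr, hdiv]; rfl)
    have : g ^ (3990 / cyc i * 11) = 1 := by rw [pow_mul, hu', ← map_pow, pow_eleven, map_one]
    have hd := Nat.le_of_dvd (Nat.mul_pos ((by decide : ∀ i, 0 < 3990 / cyc i) i) (by norm_num))
      (h ▸ orderOf_dvd_of_pow_eq_one this)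
    have := (by decide : ∀ i, 3990 / cyc i * 11 < 43890) i
    omega
  have hcomm : g * g ^ 3990 = g ^ 3990 * g := (Commute.self_pow g 3990).eq
  set u := (g ^ 3990).left with hu_def
  have hfix : act N g.right u = u := by
    rw [hu] at hcomm
    have := congrArg SemidirectProduct.left hcomm
    simp only [SemidirectProduct.mul_left, SemidirectProduct.left_inl, SemidirectProduct.right_inl, map_one,
      MulAut.one_apply] at this
    rw [mul_comm] at this
    exact mul_right_cancel this
  have hu0 : u = 1 := by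
    apply Multiplicative.toAdd.injective
    apply Subtype.ext
    funext n i x
    have hstep : ∀ y, u.toAdd.1 n i (y + res i g.right.toAdd) = u.toAdd.1 n i y := fun y =>
      congrFun (congrFun (congrFun (congrArg Subtype.val (congrArg Multiplicative.toAdd hfix)) n) i) y
    have hconst : ∀ y, u.toAdd.1 n i y = u.toAdd.1 n i 0 :=
      const_of_periodic ((by decide : ∀ i, (cyc i).Prime) i) (u.toAdd.1 n i) (hgen i) hstep
    have hs := u.toAdd.2 n i
    rw [Finset.sum_congr rfl (fun y _ => hconst y), Finset.sum_const, Finset.card_univ, ZMod.card,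
      nsmul_eq_mul] at hs
    haveI : Fact (Nat.Prime 11) := ⟨by norm_num⟩
    rcases mul_eq_zero.1 hs with h0 | h0
    · exact absurd h0 (cyc_ne_zero i)
    · rw [hconst x, h0]; rfl
  have : g ^ 3990 = 1 := by rw [hu, hu0, map_one]
  have := Nat.le_of_dvd (by norm_num) (h ▸ orderOf_dvd_of_pow_eq_one this)
  omega

/-- The vector `e₀ - e₁` in one block. -/
def vec {N : ℕ} (n₀ : Fin N) (i₀ : Fin 5) : ↥(modW N) :=
  ⟨Pi.single n₀ (Pi.single i₀ (Pi.single 0 1 - Pi.single 1 1)), fun n i => by
    by_cases hn : n = n₀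
    · subst hn
      by_cases hi : i = i₀
      · subst hi
        simp [Finset.sum_sub_distrib]
      · simp [Pi.single_eq_of_ne hi]
    · simp [Pi.single_eq_of_ne hn]⟩

theorem vec_apply {N : ℕ} (n₀ : Fin N) (i₀ : Fin 5) : (vec n₀ i₀).1 n₀ i₀ 0 = 1 := by
  haveI : Fact (cyc i₀).Prime := ⟨(by decide : ∀ i, (cyc i).Prime) i₀⟩
  simp [vec]

theorem vec_ne_zero {N : ℕ} (n₀ : Fin N) (i₀ : Fin 5) :
    Multiplicative.ofAdd (vec n₀ i₀) ≠ 1 := fun h => by
  have h' := congrArg (fun v : Multiplicative ↥(modW N) => v.toAdd.1 n₀ i₀ 0) h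
  simp only [toAdd_ofAdd, toAdd_one, vec_apply, ZeroMemClass.coe_zero, Pi.zero_apply] at h'
  exact (by decide : (1 : ZMod 11) ≠ 0) h'

theorem exists_ext_order (N : ℕ) : ∀ t ∈ topOrders, ∃ g : Ext (N + 1), orderOf g = t := by
  haveI : Fact (Nat.Prime 11) := ⟨by norm_num⟩
  have mk : ∀ (i : Fin 5) (t : ℕ), t = 11 * (3990 / cyc i) → ∃ g : Ext (N + 1), orderOf g = t := by
    intro i t ht
    set c : Multiplicative (ZMod 3990) := Multiplicative.ofAdd (cyc i : ZMod 3990)
    set v : Multiplicative ↥(modW (N + 1)) := Multiplicative.ofAdd (vec 0 i)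
    have hfix : act (N + 1) c v = v := by
      apply Multiplicative.toAdd.injective
      apply Subtype.ext
      funext n j x
      show (vec 0 i).1 n j (x + res j (cyc i : ZMod 3990)) = (vec 0 i).1 n j x
      by_cases hj : j = i
      · subst hj; simp [res]
      · by_cases hn : n = 0
        · subst hn; simp [vec, Pi.single_eq_of_ne hj]
        · simp [vec, Pi.single_eq_of_ne hn]
    have hv : orderOf v = 11 := orderOf_eq_prime (pow_eleven v) (vec_ne_zero _ _)
    have hc : orderOf c = 3990 / cyc i := by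
      show orderOf (Multiplicative.ofAdd (cyc i : ZMod 3990)) = _
      rw [orderOf_ofAdd_eq_addOrderOf, ZMod.addOrderOf_coe _ (by norm_num),
        Nat.gcd_eq_right (cyc_dvd i)]
    refine ⟨SemidirectProduct.inl v * SemidirectProduct.inr c, ?_⟩
    have hcom : Commute (SemidirectProduct.inl v : Ext (N + 1)) (SemidirectProduct.inr c) := by
      apply SemidirectProduct.ext <;> simp [hfix]
    rw [hcom.orderOf_mul_eq_mul_orderOf_of_coprime, orderOf_injective _ SemidirectProduct.inl_injective,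
      orderOf_injective _ SemidirectProduct.inr_injective, hv, hc, ht]
    rw [orderOf_injective _ SemidirectProduct.inl_injective, orderOf_injective _ SemidirectProduct.inr_injective,
      hv, hc]
    exact (by decide : ∀ i, Nat.Coprime 11 (3990 / cyc i)) i
  intro t ht
  simp only [topOrders, List.mem_cons, List.not_mem_nil, or_false] at ht
  rcases ht with rfl | rfl | rfl | rfl | rfl | rfl
  · exact mk 0 _ rfl
  · exact mk 1 _ rfl
  · exact mk 2 _ rfl
  · exact mk 3 _ rfl
  · refine ⟨SemidirectProduct.inr (Multiplicative.ofAdd ((1 : ℕ) : ZMod 3990)), ?_⟩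
    rw [orderOf_injective _ SemidirectProduct.inr_injective, orderOf_ofAdd_eq_addOrderOf,
      ZMod.addOrderOf_coe _ (by norm_num)]
    norm_num
  · exact mk 4 _ rfl

theorem lt_card_ext (N : ℕ) : N < Fintype.card (Ext (N + 1)) := by
  rw [← Nat.card_eq_fintype_card]
  have hinj : Function.Injective fun n : Fin (N + 1) =>
      (SemidirectProduct.inl (Multiplicative.ofAdd (vec n 0)) : Ext (N + 1)) := by
    intro a b h
    by_contra hab
    have h' := congrArg (fun w : ↥(modW (N + 1)) => w.1 a 0 0)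
      (Multiplicative.ofAdd.injective (SemidirectProduct.inl_injective h))
    simp only [vec_apply] at h'
    rw [show (vec b 0).1 a 0 0 = 0 by simp [vec, Pi.single_eq_of_ne hab]] at h'
    exact absurd h' (by decide)
  have := Nat.card_le_card_of_injective _ hinj
  rw [Nat.card_fin] at this
  exact lt_of_lt_of_le (Nat.lt_succ_self N) this

theorem exists_isospectral (N : ℕ) : ∃ (H : Type) (_ : Group H) (_ : Fintype H), N < Fintype.card H ∧
    Set.range (orderOf : H → ℕ) =
      Set.range (orderOf : ↥Cfsg.Spor.J1 × ↥Cfsg.Spor.J1 × ↥Cfsg.Spor.J1 × ↥Cfsg.Spor.J1 → ℕ) := by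
  haveI : Finite (Ext (N + 1)) := Finite.of_fintype _
  exact ⟨Ext (N + 1), inferInstance, inferInstance, lt_card_ext N,
    (range_orderOf orderOf_ext (exists_ext_order N)).trans range_fourth.symm⟩

end CfsgLib.JOneSpec
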