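import Cfsg.Agent.JOneSpec.Tables

/-! Kernel checks of element orders. -/

set_option autoImplicit false
set_option maxRecDepth 100000

namespace CfsgLib.JOneSpec

theorem orders0 : ((List.range 330).map (· + 0)).all ordOK = true := by decide +kernel

theorem orders1 : ((List.range 330).map (· + 330)).all ordOK = true := by decide +kernel

theorem orders2 : ((List.range 330).map (· + 660)).all ordOK = true := by decide +kernel

theorem orders3 : ((List.range 330).map (· + 990)).all ordOK = true := by decide +kernel

theorem orders4 : ((List.range 330).map (· + 1320)).all ordOK = true := by decide +kernel

end CfsgLib.JOneSpec
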