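import Cfsg.Agent.JOneSpec.Code

/-!
# Kernel checks on the tables for the first Janko group

The group is covered by the cosets of a subgroup of 660 elements, these cosets fall into five double cosets, and
every element is therefore conjugate to one of 3300 listed products, each of which has order dividing one of
6, 10, 15, 7, 11, 19.
-/

set_option autoImplicit false
set_option maxRecDepth 100000

namespace CfsgLib.JOneSpec

open CfsgLib.Chev

/-- The code of an element of the subgroup. -/
noncomputable def hc (i : ℕ) : ℕ := Data.hT.get i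

/-- The code of a coset representative. -/
noncomputable def tc (i : ℕ) : ℕ := Data.tT.get i

theorem good_tables : ((List.range 660).all fun i => goodN (hc i)) = true ∧
    ((List.range 266).all fun i => goodN (tc i)) = true := ⟨by decide +kernel, by decide +kernel⟩

theorem good_h {i : ℕ} (hi : i < 660) : Good (hc i) :=
  good_of_goodN (List.all_eq_true.1 good_tables.1 i (List.mem_range.2 hi))

theorem good_t {i : ℕ} (hi : i < 266) : Good (tc i) :=
  good_of_goodN (List.all_eq_true.1 good_tables.2 i (List.mem_range.2 hi))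

theorem close_ok : ((List.range 660).all fun i =>
    Nat.blt (Data.pA.get i) 660 && Nat.beq (mulN (hc i) Data.cA) (hc (Data.pA.get i)) &&
    Nat.blt (Data.pB.get i) 660 && Nat.beq (mulN (hc i) Data.cB) (hc (Data.pB.get i))) = true := by decide +kernel

theorem tree_ok : (Nat.beq (hc 0) Data.cI && (List.range 660).all fun i => Nat.ble i 0 ||
    (Nat.blt ((Data.parT.get i - 1) / 2) i &&
      Nat.beq (hc i) (mulN (hc ((Data.parT.get i - 1) / 2))
        (bif Nat.beq ((Data.parT.get i - 1) % 2) 0 then Data.cA else Data.cB)))) = true := by decide +kernel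

theorem coset_ok : (Nat.beq (tc 0) Data.cI && (List.range 266).all fun i =>
    Nat.blt (Data.sX.get i) 266 && Nat.blt (Data.hX.get i) 660 &&
      prodEq Data.cX (tc i) (tc (Data.sX.get i)) (hc (Data.hX.get i)) &&
    Nat.blt (Data.sY.get i) 266 && Nat.blt (Data.hY.get i) 660 &&
      prodEq Data.cY (tc i) (tc (Data.sY.get i)) (hc (Data.hY.get i))) = true := by decide +kernel

theorem double_ok : ((List.range 266).all fun k =>
    ((List.range 5).any fun r => Nat.beq (Data.orbT.get k) (Data.repL.getD r 0)) &&
    Nat.blt (Data.orbT.get k) 266 && Nat.blt (Data.waT.get k) 660 && Nat.blt (Data.wbT.get k) 660 &&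
    Nat.beq (tc k) (mulN (mulN (hc (Data.waT.get k)) (tc (Data.orbT.get k))) (hc (Data.wbT.get k)))) = true := by
  decide +kernel

/-- A coded square. -/
def sqN (g : ℕ) : ℕ := mulN g g

/-- The exponents. -/
def expo : ℕ → ℕ
  | 0 => 6
  | 1 => 10
  | 2 => 15
  | 3 => 7
  | 4 => 11
  | _ => 19

/-- The coded powers with the six exponents. -/
def powN (g : ℕ) : ℕ → ℕ
  | 0 => sqN (mulN (sqN g) g)
  | 1 => sqN (mulN (sqN (sqN g)) g)
  | 2 => mulN (sqN (mulN (sqN (sqN g)) g)) (mulN (sqN (sqN g)) g)
  | 3 => mulN (sqN (mulN (sqN g) g)) g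
  | 4 => mulN (sqN (mulN (sqN (sqN g)) g)) g
  | _ => mulN (sqN (sqN (sqN (sqN g)))) (mulN (sqN g) g)

/-- One listed product has order dividing its exponent. -/
noncomputable def ordOK (n : ℕ) : Bool :=
  Nat.beq (powN (mulN (tc (Data.repL.getD (n / 660) 0)) (hc (n % 660))) (Data.tagT.get n)) Data.cI

end CfsgLib.JOneSpec
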